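import Cfsg.Agent.H906.Cov.Num
import Cfsg.Agent.H251.GeoU
import Cfsg.Agent.H149.NegPrime

/-!
# S3691, row `PSU_N(q)`: the primes

* `Pm p f k l` (`q = p ^ f`, `k` odd): `l` is a primitive prime divisor of `p ^ (2 k f) - 1`;
* `Gd p f k l` : moreover the `l`-part of `q ^ k + 1` is larger than `2 k + 1`;
* `exists_gd` : good primes exist for odd `k ≥ 7`, `(q, k) ≠ (2, 9)`;
* `Gd.num` : elements of order `l ^ v` satisfy the numerical hypothesis of `S5948`.
-/

set_option autoImplicit false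

namespace Cfsg.Agent.H89.Reg

open Cfsg.Agent.H278.Cov Cfsg.Agent.H251.GeoU Cfsg.Agent.H588.ZsigPart

/-- a primitive prime divisor of `p ^ (2 k f) - 1` -/
structure Pm (p f k l : ℕ) : Prop where
  pr : l.Prime
  iff : ∀ j, l ∣ p ^ j - 1 ↔ 2 * k * f ∣ j

/-- a good prime -/
structure Gd (p f k l : ℕ) : Prop extends Pm p f k l where
  big : 2 * k + 1 < l ^ ((p ^ f) ^ k + 1).factorization l

namespace Pm

variable {p f k l : ℕ}

theorem not_dvd_p (h : Pm p f k l) (hp : p.Prime) (hf : 1 ≤ f) (hk : 1 ≤ k) : ¬ l ∣ p := by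
  intro h1
  have h2 := (h.iff (2 * k * f)).2 dvd_rfl
  have h3 : l ∣ p ^ (2 * k * f) := dvd_pow h1 (by positivity)
  have h4 : 1 ≤ p ^ (2 * k * f) := Nat.one_le_pow _ _ hp.pos
  have h5 : l ∣ p ^ (2 * k * f) - (p ^ (2 * k * f) - 1) := Nat.dvd_sub h3 h2
  have h6 : p ^ (2 * k * f) - (p ^ (2 * k * f) - 1) = 1 := by omega
  rw [h6] at h5
  exact h.pr.one_lt.ne' (Nat.dvd_one.1 h5)

theorem dvd_pred (h : Pm p f k l) (hp : p.Prime) (hf : 1 ≤ f) (hk : 1 ≤ k) : 2 * k * f ∣ l - 1 := by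
  have := Fact.mk h.pr
  rw [← h.iff]
  have h1 : (p : ZMod l) ≠ 0 := fun h2 => h.not_dvd_p hp hf hk ((ZMod.natCast_eq_zero_iff _ _).1 h2)
  have h2 := ZMod.pow_card_sub_one_eq_one h1
  rw [Lib.Zsigmondy.dvd_pow_sub_one_iff hp.one_lt.le]
  exact orderOf_dvd_of_pow_eq_one h2

theorem lt (h : Pm p f k l) (hp : p.Prime) (hf : 1 ≤ f) (hk : 1 ≤ k) : 2 * k * f < l := by
  have h1 := h.dvd_pred hp hf hk
  have h2 := h.pr.two_le
  have := Nat.le_of_dvd (by omega) h1
  omega

theorem not_dvd_f (h : Pm p f k l) (hp : p.Prime) (hf : 1 ≤ f) (hk : 1 ≤ k) : ¬ l ∣ f := by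
  intro h1
  have h2 := h.lt hp hf hk
  have h3 := Nat.le_of_dvd (by omega) h1
  nlinarith

theorem ne_two (h : Pm p f k l) (hp : p.Prime) (hf : 1 ≤ f) (hk : 1 ≤ k) : l ≠ 2 := by
  intro h1
  have h2 := h.lt hp hf hk
  nlinarith

theorem not_dvd_q (h : Pm p f k l) (hp : p.Prime) (hf : 1 ≤ f) (hk : 1 ≤ k) : ¬ l ∣ p ^ f := fun h1 =>
  h.not_dvd_p hp hf hk (h.pr.dvd_of_dvd_pow h1)

theorem not_dvd_pow (h : Pm p f k l) (hf : 1 ≤ f) {i : ℕ} (hi : 1 ≤ i) (hik : i < k) :
    ¬ l ∣ ((p ^ f) ^ 2) ^ i - 1 := by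
  rw [← pow_mul, ← pow_mul, h.iff]
  intro h1
  have h3 := Nat.le_of_dvd (by positivity) h1
  have h2 : f * (2 * i) < 2 * k * f := by nlinarith
  exact absurd h3 (not_le.2 h2)

theorem not_dvd_succ (h : Pm p f k l) (hf : 1 ≤ f) (hk : 2 ≤ k) : ¬ l ∣ p ^ f + 1 := by
  intro h1
  apply h.not_dvd_pow hf le_rfl (by omega : 1 < k)
  rw [pow_one]
  have := Nat.sq_sub_sq (p ^ f) 1
  rw [one_pow] at this
  rw [this]
  exact Dvd.dvd.mul_right h1 _

theorem ord (h : Pm p f k l) (hp : p.Prime) (hf : 1 ≤ f) (hk : 1 ≤ k) (hodd : Odd k) :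
    orderOf (-((p ^ f : ℕ) : ZMod l)) = k := by
  have := Fact.mk h.pr
  have hpord : ∀ j, (p : ZMod l) ^ j = 1 ↔ 2 * k * f ∣ j := by
    intro j
    rw [← orderOf_dvd_iff_pow_eq_one, ← Lib.Zsigmondy.dvd_pow_sub_one_iff hp.one_lt.le, h.iff]
  have h1 : ((p ^ f : ℕ) : ZMod l) ^ k = -1 := by
    have h2 : ((p ^ f : ℕ) : ZMod l) ^ k * ((p ^ f : ℕ) : ZMod l) ^ k = 1 := by
      push_cast
      rw [← pow_add, ← pow_mul, hpord]
      exact ⟨1, by ring⟩
    have h3 : ((p ^ f : ℕ) : ZMod l) ^ k ≠ 1 := by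
      push_cast
      rw [← pow_mul, Ne, hpord]
      intro h4
      have := Nat.le_of_dvd (by positivity) h4
      nlinarith
    rcases mul_self_eq_one_iff.1 h2 with h4 | h4
    · exact absurd h4 h3
    · exact h4
  apply Nat.dvd_antisymm
  · rw [orderOf_dvd_iff_pow_eq_one, hodd.neg_pow, h1, neg_neg]
  · have h2 : (-((p ^ f : ℕ) : ZMod l)) ^ orderOf (-((p ^ f : ℕ) : ZMod l)) = 1 := pow_orderOf_eq_one _
    set o := orderOf (-((p ^ f : ℕ) : ZMod l)) with ho
    have h3 : (p : ZMod l) ^ (2 * f * o) = 1 := by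
      have h4 : ((-((p ^ f : ℕ) : ZMod l)) ^ o) ^ 2 = 1 := by rw [h2, one_pow]
      rw [← pow_mul, mul_comm o 2, pow_mul, neg_sq] at h4
      push_cast at h4
      rw [← h4, ← pow_mul, ← pow_mul]
      congr 1
      ring
    rw [hpord] at h3
    have h4 : 2 * f * k ∣ 2 * f * o := by
      rwa [show 2 * k * f = 2 * f * k by ring] at h3
    exact Nat.dvd_of_mul_dvd_mul_left (by omega) h4

/-- `l ∣ q ^ k + 1` -/
theorem dvd_add (h : Pm p f k l) (hf : 1 ≤ f) (hk : 1 ≤ k) : l ∣ (p ^ f) ^ k + 1 := by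
  have h1 : l ∣ (p ^ f) ^ (2 * k) - 1 := by
    rw [← pow_mul, h.iff]
    exact ⟨1, by ring⟩
  have h2 : (p ^ f) ^ (2 * k) - 1 = ((p ^ f) ^ k + 1) * ((p ^ f) ^ k - 1) := by
    rw [mul_comm 2 k, pow_mul]
    have := Nat.sq_sub_sq ((p ^ f) ^ k) 1
    rwa [one_pow] at this
  rw [h2] at h1
  refine (h.pr.dvd_mul.1 h1).resolve_right fun h3 => ?_
  rw [← pow_mul, h.iff] at h3
  have := Nat.le_of_dvd (by positivity) h3
  nlinarith

end Pm

theorem exists_pm {p f k : ℕ} (hp : p.Prime) (hf : 1 ≤ f) (hk : 5 ≤ k) (hodd : Odd k) : ∃ l, Pm p f k l := by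
  obtain ⟨l, h1, h2, -, -⟩ := exists_big hp hf (by omega) hodd (by omega)
  exact ⟨l, h1, h2⟩

/-- good primes exist -/
theorem exists_gd {p f k : ℕ} (hp : p.Prime) (hf : 1 ≤ f) (hk : 7 ≤ k) (hodd : Odd k)
    (hex : ¬ (p ^ f = 2 ∧ k = 9)) : ∃ l, Gd p f k l := by
  obtain ⟨l, hl⟩ := exists_pm hp hf (by omega) hodd
  have hlt := hl.lt hp hf (by omega)
  have hd := hl.dvd_add hf (by omega)
  have hne : (p ^ f) ^ k + 1 ≠ 0 := by omega
  have hv : 1 ≤ ((p ^ f) ^ k + 1).factorization l := (hl.pr.dvd_iff_one_le_factorization hne).1 hd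
  have hle : l ≤ l ^ ((p ^ f) ^ k + 1).factorization l := Nat.le_self_pow (by omega) l
  by_cases h1 : 2 * k + 1 < l
  · exact ⟨l, hl, by omega⟩
  -- `f = 1`, `l = 2 k + 1`
  have hf1 : f = 1 := by
    by_contra h
    have : 2 * k * 2 ≤ 2 * k * f := Nat.mul_le_mul_left _ (by omega)
    omega
  subst hf1
  have hl1 : l = 2 * k + 1 := by omega
  rw [pow_one] at hd hne hv hle hex
  by_cases h2 : l ^ 2 ∣ p ^ k + 1
  · refine ⟨l, hl, ?_⟩
    rw [pow_one]
    have h3 : 2 ≤ (p ^ k + 1).factorization l := (hl.pr.pow_dvd_iff_le_factorization hne).1 h2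
    have h4 : l ^ 2 ≤ l ^ (p ^ k + 1).factorization l := Nat.pow_le_pow_right hl.pr.pos h3
    nlinarith
  · have hE : ¬ Exc p (2 * k) := by
      intro hE
      simp only [Exc, List.mem_cons, Prod.mk.injEq, List.not_mem_nil, or_false] at hE
      obtain ⟨c, rfl⟩ := hodd
      rcases hE with h | h | h | h | h | h | h | h | h | h | h | h | h
      all_goals omega
    obtain ⟨m, ⟨hm1, hm2⟩, hm3⟩ := exists_large hp.two_le (by omega) hE
    have hfac : p ^ (2 * k) - 1 = (p ^ k + 1) * (p ^ k - 1) := by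
      rw [mul_comm 2 k, pow_mul]
      have := Nat.sq_sub_sq (p ^ k) 1
      rwa [one_pow] at this
    have hmd : m ∣ p ^ k + 1 := by
      rw [hfac] at hm1
      exact (hm2 k (by omega) (by omega)).dvd_of_dvd_mul_right hm1
    have hm0 : m ≠ 0 := by omega
    obtain ⟨l', hl', hl'm, hne'⟩ : ∃ l', l'.Prime ∧ l' ∣ m ∧ l' ≠ l := by
      by_contra hcon
      push Not at hcon
      have h3 : m = l ^ m.factorization l := by
        have h4 : m.primeFactors ⊆ {l} := by
          intro r hr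
          rw [Finset.mem_singleton]
          exact hcon r (Nat.prime_of_mem_primeFactors hr) (Nat.dvd_of_mem_primeFactors hr)
        conv_lhs => rw [← Nat.prod_factorization_pow_eq_self hm0]
        rw [Finsupp.prod_of_support_subset _ (s := {l}) (by rwa [Nat.support_factorization]) _
          (fun _ _ => pow_zero _), Finset.prod_singleton]
      have h4 : m.factorization l ≤ 1 := by
        by_contra h5
        apply h2
        refine dvd_trans ?_ hmd
        rw [h3]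
        exact pow_dvd_pow l (by omega)
      have h5 : m ≤ l := by
        rw [h3]
        calc l ^ m.factorization l ≤ l ^ 1 := Nat.pow_le_pow_right hl.pr.pos h4
          _ = l := pow_one l
      omega
    have := Fact.mk hl'
    have hord : orderOf (p : ZMod l') = 2 * k := by
      rw [orderOf_eq_iff (by omega)]
      constructor
      · have h3 : l' ∣ p ^ (2 * k) - 1 := hl'm.trans hm1
        rw [Lib.Zsigmondy.dvd_pow_sub_one_iff hp.one_lt.le, orderOf_dvd_iff_pow_eq_one] at h3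
        exact h3
      · intro i hi hi0 h3
        have h4 : l' ∣ p ^ i - 1 := by
          rw [Lib.Zsigmondy.dvd_pow_sub_one_iff hp.one_lt.le]
          exact orderOf_dvd_of_pow_eq_one h3
        exact Nat.not_coprime_of_dvd_of_dvd hl'.one_lt hl'm h4 (hm2 i hi0 hi)
    have hpm : Pm p 1 k l' := ⟨hl', fun j => by
      rw [Lib.Zsigmondy.dvd_pow_sub_one_iff hp.one_lt.le, hord, mul_one]⟩
    refine ⟨l', hpm, ?_⟩
    rw [pow_one]
    have h3 := hpm.dvd_pred hp le_rfl (by omega)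
    have h4 := hpm.lt hp le_rfl (by omega)
    have h5 : 2 * k + 1 < l' := by
      rcases lt_or_eq_of_le (show 2 * k + 1 ≤ l' by omega) with h6 | h6
      · exact h6
      · exfalso
        apply hne'
        omega
    have h6 : 1 ≤ (p ^ k + 1).factorization l' :=
      (hl'.dvd_iff_one_le_factorization hne).1 (hl'm.trans hmd)
    have h7 : l' ≤ l' ^ (p ^ k + 1).factorization l' := Nat.le_self_pow (by omega) l'
    omega

/-- the numerical hypothesis of `S5948` -/
theorem Gd.num {p f k l n : ℕ} (h : Gd p f k l) (hp : p.Prime) (hf : 1 ≤ f) (hn : 10 ≤ n) (hk : k ≤ n)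
    (hk2 : n < 2 * k) : Num ((p ^ f) ^ 2) n k (l ^ ((p ^ f) ^ k + 1).factorization l) where
  ten := hn
  le := hk
  lt := hk2
  big := h.big
  dvd := by
    have h1 : l ^ ((p ^ f) ^ k + 1).factorization l ∣ (p ^ f) ^ k + 1 := Nat.ordProj_dvd _ _
    refine h1.trans ?_
    have h2 : ((p ^ f) ^ 2) ^ k = ((p ^ f) ^ k) ^ 2 := by rw [← pow_mul, mul_comm, pow_mul]
    have := Nat.sq_sub_sq ((p ^ f) ^ k) 1
    rw [one_pow] at this
    rw [h2, this]
    exact Dvd.intro _ rfl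
  prim := by
    intro i hi hik
    apply Nat.Coprime.pow_left
    rw [h.pr.coprime_iff_not_dvd]
    exact h.toPm.not_dvd_pow hf hi hik
  sub := by
    refine ⟨l, h.pr, ?_, ?_⟩
    · refine dvd_pow_self l ?_
      have hne : (p ^ f) ^ k + 1 ≠ 0 := by omega
      have := (h.pr.dvd_iff_one_le_factorization hne).1 (h.toPm.dvd_add hf (by omega))
      omega
    · intro q₀ r hr hq j hj1 hj2
      refine Cfsg.Agent.H906.Cov.sub_of (A := f * 2) (K := k) hp (by omega) hk2 (fun i hi1 hi2 => ?_) hr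
        (by rw [← hq, pow_mul]) hj1 hj2
      rw [h.iff]
      intro h1
      have := Nat.le_of_dvd hi1 h1
      have h2 : f * 2 * k = 2 * k * f := by ring
      omega

/-- a prime `s` with `orderOf (-q) = n` even -/
structure Ev (p f n s : ℕ) : Prop where
  pr : s.Prime
  ord : orderOf (-((p ^ f : ℕ) : ZMod s)) = n
  not_dvd_f : ¬ s ∣ f
  ne_two : s ≠ 2

theorem not_dvd_succ_of_ord {q n s : ℕ} (hn : 2 ≤ n) (h : orderOf (-(q : ZMod s)) = n) : ¬ s ∣ q + 1 := by
  intro h1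
  have h2 : (-(q : ZMod s)) = 1 := by
    have h3 : ((q + 1 : ℕ) : ZMod s) = 0 := (ZMod.natCast_eq_zero_iff _ _).2 h1
    push_cast at h3
    rw [neg_eq_iff_add_eq_zero]
    rw [add_comm]
    rw [add_comm] at h3
    exact h3
  rw [h2, orderOf_one] at h
  omega

theorem Ev.not_dvd_succ {p f n s : ℕ} (h : Ev p f n s) (hn : 2 ≤ n) : ¬ s ∣ p ^ f + 1 :=
  not_dvd_succ_of_ord hn h.ord

theorem Ev.le {p f n s : ℕ} (h : Ev p f n s) (hn : 1 ≤ n) : n + 1 ≤ s := by
  have h1 := dvd_pred_of_ord h.pr h.ord hn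
  have h2 := h.pr.two_le
  have := Nat.le_of_dvd (by omega) h1
  omega

theorem exists_ev {p f n : ℕ} (hp : p.Prime) (hf : 1 ≤ f) (hn : 4 ≤ n) : ∃ s, Ev p f n s := by
  obtain ⟨s, h1, h2, h3, -, h5⟩ := H149.NegPrime.exists_neg_prime (i := n) hp rfl hf (by omega) (by omega)
  exact ⟨s, h1, h2, h3, h5⟩

/-- even primes `s ≠ n + 1`, or with `s ^ 2 ∣ q ^ n - 1` -/
theorem exists_ev' {p f n : ℕ} (hp : p.Prime) (hf : 1 ≤ f) (hn : 10 ≤ n) (hev : Even n)
    (hex : ¬ (n = 12 ∧ p ^ f = 2)) : ∃ s, Ev p f n s ∧ (s ≠ n + 1 ∨ s ^ 2 ∣ (p ^ f) ^ n - 1) := by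
  by_cases hN : (n + 1).Prime
  swap
  · obtain ⟨s, hs⟩ := exists_ev (p := p) (f := f) (n := n) hp hf (by omega)
    exact ⟨s, hs, Or.inl fun h => hN (h ▸ hs.pr)⟩
  have hq : 2 ≤ p ^ f := hp.two_le.trans (Nat.le_self_pow (by omega) p)
  set e := if n % 4 = 2 then n / 2 else n with he
  have hen : e ≤ n ∧ n ≤ 2 * e ∧ 5 ≤ e ∧ (e = n ∨ n = 2 * e) := by
    obtain ⟨c, hc⟩ := hev
    rw [he]
    split_ifs <;> omega
  obtain ⟨he1, he2, he5, he3⟩ := hen
  have hnodd : ¬ Odd n := Nat.not_odd_iff_even.2 hev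
  have hcase : ∀ {s : ℕ}, s.Prime → orderOf (((p ^ f : ℕ) : ZMod s)) = e → orderOf (-((p ^ f : ℕ) : ZMod s)) = n := by
    intro s hs h
    have := Fact.mk hs
    apply H149.NegPrime.orderOf_neg_case (by omega)
    rw [if_neg hnodd, h]
  have hf0 : 0 < f := hf
  have hfe : 5 ≤ f * e := le_trans he5 (Nat.le_mul_of_pos_left e hf0)
  have he6 : e ≠ 6 := by
    rw [he]
    split_ifs <;> omega
  obtain ⟨r, hr, ho⟩ := Lib.Zsigmondy.exists_prime_orderOf (a := p) (n := f * e) hp.two_le (by omega)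
    (fun h => by omega) (by
      rintro ⟨-, h⟩
      have hf1 : f = 1 := by
        by_contra h1
        have : 2 * e ≤ f * e := Nat.mul_le_mul_right _ (by omega)
        omega
      rw [hf1] at h
      omega)
  have := Fact.mk hr
  have hrp : ¬ r ∣ p := by
    intro h
    rw [Nat.prime_dvd_prime_iff_eq hr hp] at h
    subst h
    rw [ZMod.natCast_self, orderOf_zero] at ho
    omega
  have hd := Lib.Zsigmondy.orderOf_dvd_pred hr hrp
  rw [ho] at hd
  have hle := Nat.le_of_dvd (by have := hr.two_le; omega) hd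
  have hrq : orderOf (((p ^ f : ℕ) : ZMod r)) = e := by
    rw [Nat.cast_pow, orderOf_pow_of_dvd (by omega) (by rw [ho]; exact Dvd.intro _ rfl), ho,
      Nat.mul_div_cancel_left _ (by omega)]
  have hrf : ¬ r ∣ f := by
    intro h
    have := Nat.le_of_dvd (by omega) h
    have : f ≤ f * e := Nat.le_mul_of_pos_right f (by omega)
    have := hr.two_le
    omega
  by_cases hrN : r = n + 1
  swap
  · exact ⟨r, ⟨hr, hcase hr hrq, hrf, by omega⟩, Or.inl hrN⟩
  have hf2 : f ≤ 2 := by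
    by_contra h
    have h1 : 3 * e ≤ f * e := Nat.mul_le_mul_right _ (by omega)
    omega
  have hE : ¬ Exc (p ^ f) e := by
    intro hE
    simp only [Exc, List.mem_cons, Prod.mk.injEq, List.not_mem_nil, or_false] at hE
    have h20 : e ≠ 20 := by
      intro h
      have h1 := he
      rw [h] at h1
      split_ifs at h1 with h2
      · omega
      · rw [← h1] at hN
        norm_num at hN
    have h10 : e ≠ 10 ∧ e ≠ 18 ∧ (e = 12 → n = 12) ∧ e ≠ 8 := by
      rw [he]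
      split_ifs <;> omega
    rcases hE with h | h | h | h | h | h | h | h | h | h | h | h | h
    all_goals omega
  obtain ⟨m, ⟨hm1, hm2⟩, hm3⟩ := exists_large hq (by omega) hE
  have hm0 : m ≠ 0 := by omega
  have hord : ∀ s : ℕ, s.Prime → s ∣ m → orderOf (((p ^ f : ℕ) : ZMod s)) = e := by
    intro s hs hsm
    rw [orderOf_eq_iff (by omega)]
    constructor
    · have h3 : s ∣ (p ^ f) ^ e - 1 := hsm.trans hm1
      rw [Lib.Zsigmondy.dvd_pow_sub_one_iff (by omega), orderOf_dvd_iff_pow_eq_one] at h3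
      exact h3
    · intro i hi hi0 h3
      have h4 : s ∣ (p ^ f) ^ i - 1 := by
        rw [Lib.Zsigmondy.dvd_pow_sub_one_iff (by omega)]
        exact orderOf_dvd_of_pow_eq_one h3
      exact Nat.not_coprime_of_dvd_of_dvd hs.one_lt hsm h4 (hm2 i hi0 hi)
  by_cases hs : ∃ s, s.Prime ∧ s ∣ m ∧ s ≠ n + 1
  · obtain ⟨s, hs, hsm, hsn⟩ := hs
    have h1 := hcase hs (hord s hs hsm)
    have h2 : n ∣ s - 1 := dvd_pred_of_ord hs h1 (by omega)
    have h3 := Nat.le_of_dvd (by have := hs.two_le; omega) h2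
    refine ⟨s, ⟨hs, h1, ?_, by omega⟩, Or.inl hsn⟩
    intro h4
    have := Nat.le_of_dvd (by omega) h4
    omega
  · push Not at hs
    refine ⟨n + 1, ⟨hN, ?_, ?_, by omega⟩, Or.inr ?_⟩
    · rw [← hrN]
      exact hcase hr hrq
    · rw [← hrN]
      exact hrf
    have h3 : m = (n + 1) ^ m.factorization (n + 1) := by
      have h4 : m.primeFactors ⊆ {n + 1} := by
        intro r hr
        rw [Finset.mem_singleton]
        exact hs r (Nat.prime_of_mem_primeFactors hr) (Nat.dvd_of_mem_primeFactors hr)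
      conv_lhs => rw [← Nat.prod_factorization_pow_eq_self hm0]
      rw [Finsupp.prod_of_support_subset _ (s := {n + 1}) (by rwa [Nat.support_factorization]) _
        (fun _ _ => pow_zero _), Finset.prod_singleton]
    have h4 : 2 ≤ m.factorization (n + 1) := by
      by_contra h5
      have : m ≤ n + 1 := by
        rw [h3]
        calc (n + 1) ^ m.factorization (n + 1) ≤ (n + 1) ^ 1 := Nat.pow_le_pow_right (by omega) (by omega)
          _ = n + 1 := pow_one _
      omega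
    have h5 : (n + 1) ^ 2 ∣ m := by
      rw [h3]
      exact pow_dvd_pow _ h4
    refine (h5.trans hm1).trans ?_
    rcases he3 with h6 | h6
    · rw [h6]
    · rw [h6, mul_comm 2 e, pow_mul]
      have := Nat.sq_sub_sq ((p ^ f) ^ e) 1
      rw [one_pow] at this
      rw [this]
      exact Dvd.intro_left _ rfl

end Cfsg.Agent.H89.Reg
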